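import Cfsg.Agent.Lib.Laws.Unitary

/-! A nontrivial word fails in all large alternating and classical simple groups. -/

namespace Cfsg.Agent.Lib.Laws

open Matrix

theorem lift_ne_of_mulEquiv {G H : Type*} [Group G] [Group H] (e : G ≃* H) (w : FreeGroup ℕ)
    (hlaw : ∀ f : ℕ → G, FreeGroup.lift f w = 1) :
    ¬ ∃ f : ℕ → H, FreeGroup.lift f w ≠ 1 := by
  rintro ⟨f, hf⟩
  apply hf
  have : f = fun n => e.toMonoidHom (e.symm (f n)) := by simp
  rw [this, lift_map, hlaw, map_one]

theorem card_SL_le {ι : Type} [Fintype ι] [DecidableEq ι] {F : Type} [Field F] [Fintype F] :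
    Nat.card (Matrix ι ι F) = Fintype.card F ^ (Fintype.card ι * Fintype.card ι) := by
  simp [Nat.card_eq_fintype_card, Matrix, ← pow_mul]

theorem card_le_of_sub {X M : Type*} [Group X] [Finite M] (f : X → M) (hf : Function.Injective f) :
    Nat.card (X ⧸ Subgroup.center X) ≤ Nat.card M := by
  haveI : Finite X := Finite.of_injective f hf
  exact le_trans (Nat.card_le_card_of_surjective _ (QuotientGroup.mk_surjective))
    (Nat.card_le_card_of_injective f hf)

theorem pow_bound {x a M A : ℕ} (hx : x ≤ M) (hM : 1 ≤ M) (ha : a ≤ A) : x ^ (a * a) ≤ M ^ (A * A) :=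
  le_trans (Nat.pow_le_pow_left hx _) (Nat.pow_le_pow_right hM (Nat.mul_le_mul ha ha))

theorem classical_bound (w : FreeGroup ℕ) (hw : w ≠ 1) :
    ∃ N : ℕ, ∀ (G : Type*) [Group G] [Finite G],
      (Cfsg.IsAlternating G ∨ Cfsg.IsPSL G ∨ Cfsg.IsPSp G ∨ Cfsg.IsPSU G ∨ Cfsg.IsPOmegaOdd G ∨
          Cfsg.IsPOmegaPlus G ∨ Cfsg.IsPOmegaMinus G) →
      (∀ f : ℕ → G, FreeGroup.lift f w = 1) → Nat.card G ≤ N := by
  obtain ⟨N1, hA⟩ := alt_stronglyFails w hw
  obtain ⟨N2, hS⟩ := sl2_stronglyFails.{0} w hw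
  set M := (N2 + 2) ^ 2 with hM
  set D := 2 * N1 + 3 with hD
  refine ⟨max N1.factorial (M ^ (D * D)), fun G _ _ hG hlaw => ?_⟩
  have small : ∀ {q : ℕ}, q < N2 → q ≤ M := fun {q} h => by rw [hM]; nlinarith
  have hM1 : 1 ≤ M := by rw [hM]; exact Nat.one_le_pow _ _ (by omega)
  rcases hG with ⟨n, hn, ⟨e⟩⟩ | hG
  · refine le_trans ?_ (le_max_left _ _)
    by_contra hbig
    push Not at hbig
    have hn1 : N1 ≤ n := by
      by_contra hlt
      push Not at hlt
      have h1 : Nat.card (alternatingGroup (Fin n)) ≤ Nat.card (Equiv.Perm (Fin n)) :=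
        Nat.card_le_card_of_injective _ Subtype.val_injective
      rw [← Nat.card_congr e.toEquiv, Nat.card_perm, Nat.card_fin] at h1
      exact absurd (le_trans h1 (Nat.factorial_le hlt.le)) (not_le.2 hbig)
    obtain ⟨f, -, y, -, hy⟩ := hA n hn1
    refine lift_ne_of_mulEquiv e w hlaw ⟨f, fun h => hy ?_⟩
    rw [h]
    exact Commute.one_left y
  refine le_trans ?_ (le_max_right _ _)
  rcases hG with ⟨F, _, _, n, hn, -, ⟨e⟩⟩ | ⟨F, _, _, m, hm, -, ⟨e⟩⟩ | ⟨F, _, _, n, q, hF, hn, -, ⟨e⟩⟩ |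
    ⟨F, _, _, m, hm, -, ⟨e⟩⟩ | ⟨F, _, _, m, hm, ⟨e⟩⟩ | ⟨F, _, _, m, a, b, hm, -, ⟨e⟩⟩ <;>
    rw [Nat.card_congr e.toEquiv] <;> have hlaw' := lift_ne_of_mulEquiv e w hlaw
  · have h1 : n < N1 := not_le.1 fun h => hlaw' ((hA n h).quot _ (altToSL_injective n))
    have h2 : Fintype.card F < N2 := not_le.1 fun h =>
      hlaw' ((hS F h).quot _ (slBlock_injective 2 n hn))
    refine le_trans (card_le_of_sub (M := Matrix (Fin n) (Fin n) F) (fun x => x.1) Subtype.val_injective) ?_
    rw [card_SL_le]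
    exact pow_bound (small h2) hM1 (by simp; omega)
  · have h1 : m < N1 := not_le.1 fun h => hlaw' ((hA m h).quot
      ((glToSp m F).comp (Matrix.SpecialLinearGroup.toGL.comp (altToSL m F)))
      ((glToSp_injective m).comp (Matrix.SpecialLinearGroup.toGL_injective.comp (altToSL_injective m))))
    have h2 : Fintype.card F < N2 := not_le.1 fun h => hlaw' ((hS F h).quot
      ((glToSp m F).comp (Matrix.SpecialLinearGroup.toGL.comp (slBlock 2 m hm F)))
      ((glToSp_injective m).comp (Matrix.SpecialLinearGroup.toGL_injective.comp (slBlock_injective 2 m hm))))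
    refine le_trans (card_le_of_sub (M := Matrix (Fin m ⊕ Fin m) (Fin m ⊕ Fin m) F)
      (fun x => x.1) Subtype.val_injective) ?_
    rw [card_SL_le]
    exact pow_bound (small h2) hM1 (by simp; omega)
  · have h1 : n < N1 := not_le.1 fun h => by
      obtain ⟨φ, hφ⟩ := alt_into_SU (F := F) n q
      exact hlaw' ((hA n h).quot φ hφ)
    have h2 : q < N2 := not_le.1 fun h => by
      obtain ⟨K, hK, φ, hφ⟩ := sl2_into_SU q n (by omega) hF
      haveI : Fintype K := Fintype.ofFinite K
      exact hlaw' ((hS K (by rw [← Nat.card_eq_fintype_card]; omega)).quot φ hφ)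
    refine le_trans (card_le_of_sub (M := Matrix (Fin n) (Fin n) F)
      (fun x => x.1.1) (Subtype.val_injective.comp Subtype.val_injective)) ?_
    rw [card_SL_le, hF]
    exact pow_bound (by rw [hM]; exact Nat.pow_le_pow_left (by omega) 2) hM1 (by simp; omega)
  · obtain ⟨φ, hφ⟩ := glToOOdd (F := F) m
    have h1 : m < N1 := not_le.1 fun h => hlaw' ((hA m h).quotCommutator
      (φ.comp (Matrix.SpecialLinearGroup.toGL.comp (altToSL m F)))
      (hφ.comp (Matrix.SpecialLinearGroup.toGL_injective.comp (altToSL_injective m))))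
    have h2 : Fintype.card F < N2 := not_le.1 fun h => hlaw' ((hS F h).quotCommutator
      (φ.comp (Matrix.SpecialLinearGroup.toGL.comp (slBlock 2 m (by omega) F)))
      (hφ.comp (Matrix.SpecialLinearGroup.toGL_injective.comp (slBlock_injective 2 m (by omega)))))
    refine le_trans (card_le_of_sub (M := Matrix (Unit ⊕ (Fin m ⊕ Fin m)) (Unit ⊕ (Fin m ⊕ Fin m)) F)
      (fun x => ((x.1.1 : GL _ F) : Matrix _ _ F))
      (Units.val_injective.comp (Subtype.val_injective.comp Subtype.val_injective))) ?_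
    rw [card_SL_le]
    exact pow_bound (small h2) hM1 (by simp; omega)
  · obtain ⟨φ, hφ⟩ := glToOPlus (F := F) m
    have h1 : m < N1 := not_le.1 fun h => hlaw' ((hA m h).quotCommutator
      (φ.comp (Matrix.SpecialLinearGroup.toGL.comp (altToSL m F)))
      (hφ.comp (Matrix.SpecialLinearGroup.toGL_injective.comp (altToSL_injective m))))
    have h2 : Fintype.card F < N2 := not_le.1 fun h => hlaw' ((hS F h).quotCommutator
      (φ.comp (Matrix.SpecialLinearGroup.toGL.comp (slBlock 2 m (by omega) F)))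
      (hφ.comp (Matrix.SpecialLinearGroup.toGL_injective.comp (slBlock_injective 2 m (by omega)))))
    refine le_trans (card_le_of_sub (M := Matrix (Fin m ⊕ Fin m) (Fin m ⊕ Fin m) F)
      (fun x => ((x.1.1 : GL _ F) : Matrix _ _ F))
      (Units.val_injective.comp (Subtype.val_injective.comp Subtype.val_injective))) ?_
    rw [card_SL_le]
    exact pow_bound (small h2) hM1 (by simp; omega)
  · obtain ⟨φ, hφ⟩ := glToOMinus (F := F) (m - 1) a b
    have h1 : m - 1 < N1 := not_le.1 fun h => hlaw' ((hA (m - 1) h).quotCommutator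
      (φ.comp (Matrix.SpecialLinearGroup.toGL.comp (altToSL (m - 1) F)))
      (hφ.comp (Matrix.SpecialLinearGroup.toGL_injective.comp (altToSL_injective (m - 1)))))
    have h2 : Fintype.card F < N2 := not_le.1 fun h => hlaw' ((hS F h).quotCommutator
      (φ.comp (Matrix.SpecialLinearGroup.toGL.comp (slBlock 2 (m - 1) (by omega) F)))
      (hφ.comp (Matrix.SpecialLinearGroup.toGL_injective.comp (slBlock_injective 2 (m - 1) (by omega)))))
    refine le_trans (card_le_of_sub
      (M := Matrix ((Fin (m - 1) ⊕ Fin (m - 1)) ⊕ Fin 2) ((Fin (m - 1) ⊕ Fin (m - 1)) ⊕ Fin 2) F)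
      (fun x => ((x.1.1 : GL _ F) : Matrix _ _ F))
      (Units.val_injective.comp (Subtype.val_injective.comp Subtype.val_injective))) ?_
    rw [card_SL_le]
    exact pow_bound (small h2) hM1 (by simp; omega)

end Cfsg.Agent.Lib.Laws
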