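import Cfsg.Agent.Lib.Laws.Basic
import Cfsg.Prelude.Def_Sz

/-! A nontrivial word fails in all large Suzuki groups. -/

namespace Cfsg.Agent.Lib.Laws

open Matrix Cfsg.Lie

variable {F : Type*} [Field F]

/-- an element of `Sz(2)` with nonzero corners -/
def szMat (F : Type*) [Field F] : Matrix (Fin 4) (Fin 4) F :=
  !![1, 0, 1, 1; 0, 1, 0, 1; 1, 0, 0, 1; 1, 1, 1, 1]

/-- its inverse -/
def szMatInv (F : Type*) [Field F] : Matrix (Fin 4) (Fin 4) F :=
  !![1, 1, 1, 1; 1, 0, 0, 1; 1, 0, 1, 0; 1, 1, 0, 1]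

/-- as a unit -/
def szElt (F : Type*) [Field F] [CharP F 2] : GL (Fin 4) F where
  val := szMat F
  inv := szMatInv F
  val_inv := by
    ext i j
    fin_cases i <;> fin_cases j <;>
      simp [szMat, szMatInv, Matrix.mul_apply, Fin.sum_univ_four, CharTwo.add_self_eq_zero]
  inv_val := by
    ext i j
    fin_cases i <;> fin_cases j <;>
      simp [szMat, szMatInv, Matrix.mul_apply, Fin.sum_univ_four, CharTwo.add_self_eq_zero]

theorem szElt_mem [CharP F 2] (e : ℕ) (he : e ≠ 0) : szElt F ∈ Sz F e := by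
  apply Subgroup.subset_closure
  constructor
  · intro u v
    simp [altForm4, szElt, szMat, Matrix.mulVec, dotProduct, Fin.sum_univ_four]
    ring_nf
    simp [CharTwo.two_eq_zero, show (4 : F) = 0 from by linear_combination (2 : F) * (CharTwo.two_eq_zero (R := F)),
      show (3 : F) = 1 from by linear_combination (CharTwo.two_eq_zero (R := F))]
  · ext i j
    fin_cases i <;> fin_cases j <;>
      simp [star4, pairOf, szElt, szMat, he, CharTwo.neg_eq]

/-- the torus `diag(r^(k+1), r^k, r^-k, r^-(k+1))` -/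
noncomputable def szTorus (k : ℕ) (r : F) (hr : r ≠ 0) : GL (Fin 4) F where
  val := diagonal ![r ^ (k + 1), r ^ k, (r ^ k)⁻¹, (r ^ (k + 1))⁻¹]
  inv := diagonal ![(r ^ (k + 1))⁻¹, (r ^ k)⁻¹, r ^ k, r ^ (k + 1)]
  val_inv := by ext i j; fin_cases i <;> fin_cases j <;> simp [hr]
  inv_val := by ext i j; fin_cases i <;> fin_cases j <;> simp [hr]

theorem szTorus_mem [CharP F 2] (k : ℕ) (hk : k ≠ 0) (hq : ∀ x : F, x ^ (2 * k * k) = x) (r : F) (hr : r ≠ 0) :
    szTorus k r hr ∈ Sz F (2 * k) := by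
  apply Subgroup.subset_closure
  have h1 : r ^ (k + 1) * r ^ k = (r ^ (k + 1)) ^ (2 * k) := by
    rw [← pow_mul, show (k + 1) * (2 * k) = 2 * k * k + 2 * k by ring, pow_add (a := r) (m := 2 * k * k),
      hq, ← pow_add, ← pow_succ']
    congr 1
    ring
  have h2 : r ^ (k + 1) * (r ^ k)⁻¹ = (r ^ k) ^ (2 * k) := by
    rw [← pow_mul, show k * (2 * k) = 2 * k * k by ring, hq, pow_succ']
    field_simp
  have h2k : 2 * k ≠ 0 := by omega
  constructor
  · intro u v
    simp [altForm4, szTorus, Matrix.mulVec_diagonal]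
    field_simp
  · ext i j
    have h1' := congrArg Inv.inv h1
    have h2' := congrArg Inv.inv h2
    rw [mul_inv, ← inv_pow] at h1'
    rw [mul_inv, inv_inv, ← inv_pow] at h2'
    fin_cases i <;> fin_cases j <;> simp [star4, pairOf, szTorus, Matrix.diagonal, h2k]
    · exact h1
    · exact h2
    · rw [mul_comm]; simpa [inv_pow] using h2'
    · rw [mul_comm]; simpa [inv_pow] using h1'

theorem sz_witness (w : FreeGroup ℕ) (hw : w ≠ 1) :
    ∃ N : ℕ, ∀ (F : Type*) [Field F] [Fintype F] (m : ℕ), 1 ≤ m → N ≤ m →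
      Fintype.card F = 2 ^ (2 * m + 1) →
      ∃ f : ℕ → ↥(Sz F (2 ^ (m + 1))), FreeGroup.lift f w ≠ 1 := by
  have hv : twoGen w ≠ 1 := fun h => hw (twoGen_injective (h.trans (map_one _).symm))
  set v := twoGen w
  refine ⟨4 * v.toWord.length + 4, fun F _ _ m hm hN hF => ?_⟩
  classical
  haveI : CharP F 2 := by
    obtain ⟨p, hp⟩ := CharP.exists F
    haveI := hp
    haveI := Fact.mk (CharP.char_is_prime F p)
    obtain ⟨e, hp', he⟩ := FiniteField.card F p
    have : p ∣ 2 ^ (2 * m + 1) := hF ▸ he ▸ dvd_pow_self p e.ne_zero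
    obtain rfl := (Nat.prime_dvd_prime_iff_eq hp' Nat.prime_two).1 (hp'.dvd_of_dvd_pow this)
    exact hp
  set k := 2 ^ m with hk
  have hk0 : k ≠ 0 := by positivity
  have hqk : Fintype.card F = 2 * k * k := by rw [hF, hk]; ring
  have hq : ∀ x : F, x ^ (2 * k * k) = x := fun x => by rw [← hqk]; exact FiniteField.pow_card x
  have hke : (2 : ℕ) ^ (m + 1) = 2 * k := by rw [hk]; ring
  let a : Bool → Fin 4 → ℕ := fun e =>
    if e then ![2 * k + 2, 2 * k + 1, 1, 0] else ![0, 1, 2 * k + 1, 2 * k + 2]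
  let top : Bool → Fin 4 := fun e => if e then 0 else 3
  let hh : Fin 2 → GL (Fin 4) F := ![1, szElt F]
  have hne : v.toWord ≠ [] := by rwa [ne_eq, FreeGroup.toWord_eq_nil_iff]
  have hbig : v.toWord.length * (2 * k + 2) + 1 < Fintype.card F := by
    have h2 : 4 * v.toWord.length + 4 ≤ k :=
      le_trans hN (hk ▸ (Nat.lt_two_pow_self).le)
    rw [hqk]; nlinarith
  obtain ⟨s, hs0, hs⟩ := exists_nonscalar (F := F) (fun i => (hh i : Matrix (Fin 4) (Fin 4) F))
    (fun i => (((hh i)⁻¹ : GL (Fin 4) F) : Matrix (Fin 4) (Fin 4) F)) a (2 * k + 2) top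
    (by intro e l; cases e <;> fin_cases l <;> simp [a]; all_goals omega)
    (by intro e l; cases e <;> fin_cases l <;> simp [a, top]; all_goals omega)
    (by
      intro i j e f hij
      by_cases hh' : i = j
      · subst hh'
        rw [← Units.val_mul, hij rfl, inv_mul_cancel]
        simp
      · have h0 : (hh 0 : Matrix (Fin 4) (Fin 4) F) = 1 := rfl
        have h0' : (((hh 0)⁻¹ : GL (Fin 4) F) : Matrix (Fin 4) (Fin 4) F) = 1 := by simp [hh]
        have h1 : (hh 1 : Matrix (Fin 4) (Fin 4) F) = szMat F := rfl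
        have h1' : (((hh 1)⁻¹ : GL (Fin 4) F) : Matrix (Fin 4) (Fin 4) F) = szMatInv F := rfl
        fin_cases i <;> fin_cases j <;> simp at hh' <;> cases e <;> cases f <;>
          simp [h0, h0', h1, h1', top, szMat, szMatInv])
    v.toWord hne FreeGroup.isReduced_toWord hbig
  let T := szTorus k s hs0
  have hT : T ∈ Sz F (2 ^ (m + 1)) := hke ▸ szTorus_mem k hk0 hq s hs0
  have hmem : ∀ i, hh i * T * (hh i)⁻¹ ∈ Sz F (2 ^ (m + 1)) := by
    have h1 : ∀ i, hh i ∈ Sz F (2 ^ (m + 1)) := by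
      intro i; fin_cases i
      · exact one_mem _
      · exact szElt_mem _ (by positivity)
    exact fun i => mul_mem (mul_mem (h1 i) hT) (inv_mem (h1 i))
  let g : Fin 2 → ↥(Sz F (2 ^ (m + 1))) := fun i => ⟨_, hmem i⟩
  refine ⟨fun n => g 0 ^ n * g 1 * (g 0 ^ n)⁻¹, ?_⟩
  rw [lift_twoGen]
  intro hone
  apply hs (s ^ ((k + 1) * v.toWord.length))
  let G : Fin 2 → GL (Fin 4) F := fun i => hh i * T * (hh i)⁻¹
  have hG : FreeGroup.lift G v = 1 := by
    have h := congrArg (Subgroup.subtype _) hone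
    rw [map_one, ← MonoidHom.comp_apply] at h
    rw [show FreeGroup.lift G = (Subgroup.subtype _).comp (FreeGroup.lift g) from
      FreeGroup.ext_hom _ _ fun i => by simp [G, g]]
    exact h
  have hletter : ∀ x : Fin 2 × Bool, letterVal (fun i => (hh i : Matrix (Fin 4) (Fin 4) F))
      (fun i => (((hh i)⁻¹ : GL (Fin 4) F) : Matrix (Fin 4) (Fin 4) F)) a s x =
      (s ^ (k + 1)) • ((cond x.2 (G x.1) (G x.1)⁻¹ : GL (Fin 4) F) : Matrix (Fin 4) (Fin 4) F) := by
    rintro ⟨i, e⟩
    have hd : diagonal (fun l => s ^ a e l) =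
        (s ^ (k + 1)) • ((cond e T T⁻¹ : GL (Fin 4) F) : Matrix (Fin 4) (Fin 4) F) := by
      have p1 : s ^ (2 * k + 2) = s ^ (k + 1) * s ^ (k + 1) := by rw [← pow_add]; congr 1; ring
      have p2 : s ^ (2 * k + 1) = s ^ (k + 1) * s ^ k := by rw [← pow_add]; congr 1; ring
      cases e
      · ext l l'
        fin_cases l <;> fin_cases l' <;> simp [a, T, szTorus, Matrix.diagonal, hs0, p1, p2]
        all_goals (rw [pow_succ]; field_simp)
      · ext l l'
        fin_cases l <;> fin_cases l' <;> simp [a, T, szTorus, Matrix.diagonal, hs0, p1, p2]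
        all_goals (rw [pow_succ]; field_simp)
    have hg : cond e (G i) (G i)⁻¹ = hh i * cond e T T⁻¹ * (hh i)⁻¹ := by
      cases e <;> simp [G, mul_assoc]
    simp only [letterVal, hg, hd, Units.val_mul, Matrix.mul_smul, Matrix.smul_mul]
  have hprod : ∀ l : List (Fin 2 × Bool),
      (l.map (letterVal (fun i => (hh i : Matrix (Fin 4) (Fin 4) F))
        (fun i => (((hh i)⁻¹ : GL (Fin 4) F) : Matrix (Fin 4) (Fin 4) F)) a s)).prod =
      s ^ ((k + 1) * l.length) •
        (((l.map fun x => cond x.2 (G x.1) (G x.1)⁻¹).prod : GL (Fin 4) F) :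
          Matrix (Fin 4) (Fin 4) F) := by
    intro l
    induction l with
    | nil => simp
    | cons x l ih =>
      rw [List.map_cons, List.prod_cons, hletter, ih, List.map_cons, List.prod_cons,
        Units.val_mul, List.length_cons, Nat.mul_succ, Matrix.smul_mul, Matrix.mul_smul,
        smul_smul, ← pow_add]
      congr 2
      omega
  rw [hprod, ← FreeGroup.lift_mk, FreeGroup.mk_toWord, hG, Units.val_one]
  ext i j
  simp [Matrix.diagonal_apply, Matrix.one_apply]

end Cfsg.Agent.Lib.Laws
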