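import Cfsg.Agent.Lib.Laws.Embeddings

/-! `A_n` and `SL_2(q)` inside `SU_n(q)`. -/

namespace Cfsg.Agent.Lib.Laws

open Matrix
open scoped Matrix

variable {F : Type*} [Field F]

theorem altToSL_mem_SU (n q : ℕ) (σ : alternatingGroup (Fin n)) : altToSL n F σ ∈ Cfsg.SU n F q := by
  intro u v
  change Cfsg.hermForm n F q (permMatrixHom (R := F) σ.1 *ᵥ u) (permMatrixHom (R := F) σ.1 *ᵥ v) = _
  rw [permMatrixHom_apply, permMatrix_mulVec, permMatrix_mulVec]
  exact Equiv.sum_comp (σ.1)⁻¹ (fun i => u i * v i ^ q)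

theorem alt_into_SU (n q : ℕ) :
    ∃ φ : alternatingGroup (Fin n) →* Cfsg.SU n F q, Function.Injective φ :=
  ⟨(altToSL n F).codRestrict _ (altToSL_mem_SU n q),
    fun _ _ h => altToSL_injective n (congrArg Subtype.val h)⟩

variable [Fintype F]

theorem exists_pow_eq_of_pow_eq_one {G : Type*} [Group G] [Finite G] [IsCyclic G] (k l : ℕ)
    (hkl : Nat.card G = k * l) (y : G) (hy : y ^ l = 1) : ∃ x : G, x ^ k = y := by
  obtain ⟨g, hg⟩ := IsCyclic.exists_generator (α := G)
  obtain ⟨j, rfl⟩ := Submonoid.mem_powers_iff _ _ |>.1 (mem_powers_iff_mem_zpowers.2 (hg y))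
  rw [← pow_mul, ← orderOf_dvd_iff_pow_eq_one, orderOf_eq_card_of_forall_mem_zpowers hg, hkl] at hy
  have hl : 0 < l := Nat.pos_of_ne_zero fun h => Nat.card_pos.ne' (hkl.trans (by rw [h, mul_zero]))
  obtain ⟨i, rfl⟩ := (Nat.mul_dvd_mul_iff_right hl).1 hy
  exact ⟨g ^ i, by rw [← pow_mul, mul_comm]⟩

theorem char_of_card_sq (q : ℕ) (hF : Fintype.card F = q ^ 2) :
    ∃ p j : ℕ, p.Prime ∧ CharP F p ∧ q = p ^ j := by
  obtain ⟨p, hp⟩ := CharP.exists F
  haveI := hp
  obtain ⟨e, hp', he⟩ := FiniteField.card F p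
  have : q ∣ p ^ (e : ℕ) := ⟨q, by rw [← he, hF]; ring⟩
  obtain ⟨j, -, hj⟩ := (Nat.dvd_prime_pow hp').1 this
  exact ⟨p, j, hp', hp, hj⟩

theorem sl2_into_SU (q n : ℕ) (hn : 2 ≤ n) (hF : Fintype.card F = q ^ 2) :
    ∃ K : Subfield F, q ≤ Nat.card K ∧
      ∃ φ : Matrix.SpecialLinearGroup (Fin 2) K →* Cfsg.SU n F q, Function.Injective φ := by
  classical
  obtain ⟨p, j, hp, hch, hq⟩ := char_of_card_sq q hF
  haveI := hch
  haveI : ExpChar F p := ExpChar.prime hp
  let φ : F →+* F := iterateFrobenius F p j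
  have hφ : ∀ x : F, φ x = x ^ q := fun x => by rw [hq]; exact iterateFrobenius_def p j x
  have hqq : ∀ x : F, (x ^ q) ^ q = x := fun x => by
    rw [← pow_mul, ← sq, ← hF]; exact FiniteField.pow_card x
  have hq2 : 2 ≤ q := by
    have := Fintype.one_lt_card (α := F); rw [hF] at this; nlinarith
  have hcardU : Nat.card Fˣ = (q - 1) * (q + 1) := by
    rw [Nat.card_units, Nat.card_eq_fintype_card, hF]
    rw [Nat.sub_one_mul]
    ring_nf
    omega
  let K : Subfield F := φ.eqLocusField (RingHom.id F)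
  have hK : ∀ x : F, x ∈ K ↔ x ^ q = x := fun x => by
    change φ x = x ↔ _; rw [hφ]
  haveI : Fintype K := Fintype.ofFinite K
  have hKcard : q ≤ Nat.card K := by
    let h : Fˣ →* Fˣ := powMonoidHom (q + 1)
    have hker : Nat.card h.ker ≤ q + 1 := by
      rw [show h.ker = rootsOfUnity (q + 1) F from by ext x; simp [h, mem_rootsOfUnity]]
      exact card_rootsOfUnity F (q + 1)
    have hmul := h.ker.card_mul_index
    rw [Subgroup.index_ker, hcardU] at hmul
    have hrange : q - 1 ≤ Nat.card h.range := by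
      by_contra hlt
      push Not at hlt
      have := Nat.mul_le_mul hker (le_refl (Nat.card h.range))
      rw [hmul] at this
      nlinarith
    let g : Option h.range → K := fun o => match o with
      | none => ⟨0, by rw [hK]; simp; omega⟩
      | some x => ⟨((x : Fˣ) : F), by
          obtain ⟨y, hy⟩ := x.2
          rw [hK, ← hy]
          simp only [h, powMonoidHom_apply, Units.val_pow_eq_pow_val, ← pow_mul]
          have : ((y : F) ^ q) ^ q = y := hqq y
          rw [← pow_mul] at this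
          rw [add_mul, one_mul, pow_add, this, pow_succ']⟩
    have hg : Function.Injective g := by
      rintro (_ | x) (_ | y) hxy
      · rfl
      · exact absurd (congrArg Subtype.val hxy).symm (by simp [g])
      · exact absurd (congrArg Subtype.val hxy) (by simp [g])
      · simp only [g, Subtype.mk.injEq] at hxy
        exact congrArg some (Subtype.ext (Units.ext hxy))
    have := Nat.card_le_card_of_injective g hg
    rw [Finite.card_option] at this
    omega
  have hm1 : ∀ x : ℕ, (x = q - 1 ∨ x = q + 1) → (-1 : Fˣ) ^ x = 1 := by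
    intro x hx
    rcases hp.eq_two_or_odd' with rfl | hodd
    · have : (-1 : Fˣ) = 1 := Units.ext (CharTwo.neg_eq 1)
      rw [this, one_pow]
    · have hqo : Odd q := hq ▸ hodd.pow
      have he : Even x := by
        rcases hx with rfl | rfl
        · exact Nat.Odd.sub_odd hqo odd_one
        · exact hqo.add_odd odd_one
      exact he.neg_one_pow
  obtain ⟨a, ha⟩ := exists_pow_eq_of_pow_eq_one (G := Fˣ) (q + 1) (q - 1)
    (by rw [hcardU, mul_comm]) (-1) (hm1 _ (.inl rfl))
  obtain ⟨x0, hx0⟩ := exists_pow_eq_of_pow_eq_one (G := Fˣ) (q - 1) (q + 1)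
    hcardU (-1) (hm1 _ (.inr rfl))
  obtain ⟨g, hg⟩ := IsCyclic.exists_ofOrder_eq_natCard (α := Fˣ)
  let ε := g ^ (q - 1)
  have hε : ε ^ (q + 1) = 1 := by
    rw [← pow_mul, ← hcardU, ← hg, pow_orderOf_eq_one]
  have hε1 : ε ≠ 1 := by
    intro h
    have h1 := Nat.le_of_dvd (by omega) (orderOf_dvd_of_pow_eq_one h)
    rw [hg, hcardU] at h1
    have : (q - 1) * 2 ≤ (q - 1) * (q + 1) := Nat.mul_le_mul_left _ (by omega)
    omega
  let b := ε * a
  have hb : (b : F) ^ (q + 1) = -1 := by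
    have : b ^ (q + 1) = -1 := by rw [mul_pow, hε, one_mul, ha]
    simpa using congrArg Units.val this
  have ha' : (a : F) ^ (q + 1) = -1 := by simpa using congrArg Units.val ha
  have hab : (a : F) ≠ b := fun h => hε1 (by
    have : b = a := (Units.ext h).symm
    simpa [b] using this)
  set δ : F := 1 + a * (b : F) ^ q with hδ
  have hδ0 : δ ≠ 0 := by
    intro h
    have hne : (b : F) ^ q ≠ 0 := pow_ne_zero _ b.ne_zero
    apply hab
    apply mul_right_cancel₀ hne
    rw [← pow_succ', hb]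
    linear_combination h
  obtain ⟨lam, hlam⟩ : ∃ lam : F, δ * lam ^ q = x0 := by
    refine ⟨((x0 : F) / δ) ^ q, ?_⟩
    rw [hqq, mul_div_cancel₀ _ hδ0]
  have hlam0 : lam ≠ 0 := by
    intro h; rw [h, zero_pow (by omega), mul_zero] at hlam; exact x0.ne_zero hlam.symm
  have hskew : (x0 : F) ^ q = -(x0 : F) := by
    have h1 : (x0 : F) ^ (q - 1) = -1 := by simpa using congrArg Units.val hx0
    calc (x0 : F) ^ q = (x0 : F) ^ (q - 1) * x0 := by rw [← pow_succ]; congr 1; omega
      _ = _ := by rw [h1]; ring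
  let M : Matrix (Fin 2) (Fin 2) F := !![1, lam; a, lam * b]
  have hdet : M.det ≠ 0 := by
    rw [Matrix.det_fin_two]; simp [M]
    intro h
    exact hab (mul_left_cancel₀ hlam0 (by linear_combination -h))
  haveI : Invertible M.det := invertibleOfNonzero hdet
  haveI : Invertible M := M.invertibleOfDetInvertible
  let H : (Fin 2 → F) → (Fin 2 → F) → F := fun u v => u 0 * v 0 ^ q + u 1 * v 1 ^ q
  have hadd : ∀ x y : F, (x + y) ^ q = x ^ q + y ^ q := fun x y => by
    rw [← hφ, ← hφ, ← hφ, map_add]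
  have hM : ∀ u v, H (M *ᵥ u) (M *ᵥ v) = (x0 : F) * (u 0 * v 1 ^ q - u 1 * v 0 ^ q) := by
    intro u v
    have e1 : (1 : F) + lam * b * 0 = 1 := by ring
    have hbq : (b : F) ^ q * b = -1 := by rw [← pow_succ, hb]
    have haq : (a : F) ^ q * a = -1 := by rw [← pow_succ, ha']
    have hδq : δ ^ q * lam = -(x0 : F) := by
      rw [← hskew, ← hlam, mul_pow, hqq]
    have hδq' : δ ^ q = 1 + (a : F) ^ q * b := by
      rw [hδ, hadd, one_pow, mul_pow, hqq]
    simp [H, M, Matrix.mulVec, dotProduct, Fin.sum_univ_two, hadd, mul_pow]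
    linear_combination (u 0 * v 1 ^ q) * hlam + (u 1 * v 0 ^ q) * hδq - (u 1 * v 0 ^ q * lam) * hδq'
      + (u 0 * v 0 ^ q) * haq + (u 1 * v 1 ^ q * lam * lam ^ q) * hbq
      - (u 0 * v 1 ^ q * lam ^ q) * hδ
  let Km : Matrix.SpecialLinearGroup (Fin 2) K →* Matrix (Fin 2) (Fin 2) F :=
    (K.subtype.mapMatrix : Matrix (Fin 2) (Fin 2) K →+* Matrix (Fin 2) (Fin 2) F).toMonoidHom.comp
      ((Units.coeHom _).comp Matrix.SpecialLinearGroup.toGL)
  let ψ : Matrix.SpecialLinearGroup (Fin 2) K →* Matrix.SpecialLinearGroup (Fin 2) F :=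
    { toFun := fun A => ⟨M * Km A * ⅟M, by
        rw [det_mul, det_mul, mul_comm M.det, mul_assoc, ← det_mul, mul_invOf_self, det_one, mul_one]
        change (K.subtype.mapMatrix (A : Matrix (Fin 2) (Fin 2) K)).det = 1
        rw [← RingHom.map_det, A.2, map_one]⟩
      map_one' := Subtype.ext (show M * Km 1 * ⅟M = 1 by rw [map_one, Matrix.mul_one, mul_invOf_self])
      map_mul' := fun A B => Subtype.ext (show M * Km (A * B) * ⅟M = (M * Km A * ⅟M) * (M * Km B * ⅟M) by
        rw [map_mul]; simp [Matrix.mul_assoc]) }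
  have hψ : Function.Injective ψ := by
    intro A B h
    have h1 : M * Km A * ⅟M = M * Km B * ⅟M := congrArg Subtype.val h
    have h2 := congrArg (fun X => ⅟M * X * M) h1
    simp [Matrix.mul_assoc] at h2
    exact Subtype.ext (Matrix.map_injective Subtype.val_injective h2)
  have hinv : ∀ A u v, H (ψ A *ᵥ u) (ψ A *ᵥ v) = H u v := by
    intro A u v
    change H ((M * Km A * ⅟M) *ᵥ u) ((M * Km A * ⅟M) *ᵥ v) = H u v
    rw [← Matrix.mulVec_mulVec, ← Matrix.mulVec_mulVec (v := v), ← Matrix.mulVec_mulVec (M := M),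
      ← Matrix.mulVec_mulVec (M := M), hM]
    conv_rhs => rw [show u = M *ᵥ (⅟M *ᵥ u) by rw [Matrix.mulVec_mulVec, mul_invOf_self, one_mulVec],
      show v = M *ᵥ (⅟M *ᵥ v) by rw [Matrix.mulVec_mulVec, mul_invOf_self, one_mulVec], hM]
    generalize ⅟M *ᵥ u = u', ⅟M *ᵥ v = v'
    have hd : (A : Matrix (Fin 2) (Fin 2) K) 0 0 * (A : Matrix (Fin 2) (Fin 2) K) 1 1 -
        (A : Matrix (Fin 2) (Fin 2) K) 0 1 * (A : Matrix (Fin 2) (Fin 2) K) 1 0 = 1 := by
      rw [← Matrix.det_fin_two]; exact A.2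
    have hd' := congrArg Subtype.val hd
    simp at hd'
    have hk : ∀ i k, ((A : Matrix (Fin 2) (Fin 2) K) i k : F) ^ q = (A : Matrix (Fin 2) (Fin 2) K) i k :=
      fun i k => (hK _).1 ((A : Matrix (Fin 2) (Fin 2) K) i k).2
    congr 1
    simp [Km, Matrix.mulVec, dotProduct, Fin.sum_univ_two, hadd, mul_pow, hk]
    linear_combination (u' 0 * v' 1 ^ q - u' 1 * v' 0 ^ q) * hd'
  refine ⟨K, hKcard, ((slBlock 2 n hn F).comp ψ).codRestrict _ ?_, ?_⟩
  · intro A u v
    set e : Fin 2 ⊕ Fin (n - 2) ≃ Fin n := finSumFinEquiv.trans (finCongr (by omega)) with he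
    change Cfsg.hermForm n F q ((slBlock 2 n hn F (ψ A) : Matrix (Fin n) (Fin n) F) *ᵥ u)
      ((slBlock 2 n hn F (ψ A) : Matrix (Fin n) (Fin n) F) *ᵥ v) = _
    rw [slBlock_coe, ← he, reindex_apply, submatrix_mulVec_equiv, submatrix_mulVec_equiv]
    simp only [Cfsg.hermForm, Equiv.symm_symm, ← e.sum_comp, Function.comp_apply, Equiv.symm_apply_apply,
      Fintype.sum_sum_type, fromBlocks_mulVec, Sum.elim_inl, Sum.elim_inr, one_mulVec, zero_mulVec,
      zero_add, add_zero]
    congr 1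
    have := hinv A (u ∘ e ∘ Sum.inl) (v ∘ e ∘ Sum.inl)
    simpa [H, Fin.sum_univ_two, Function.comp_def] using this
  · exact fun A B h => hψ (slBlock_injective 2 n hn (congrArg Subtype.val h))

end Cfsg.Agent.Lib.Laws
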